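import Mathlib

/-!
# S4766, piece B9: numerics (helper961)

`n = x + 20`, `m = n - 1 = x + 19`.
-/

set_option autoImplicit false

namespace Cfsg.Agent.H961.AN

/-- the low degrees of `A_n`, `n = x + 20` -/
def Low (x d : ℕ) : Prop :=
  d = 1 ∨ d = x + 19 ∨ 2 * d = (x + 20) * (x + 17) ∨ 2 * d = (x + 19) * (x + 18) ∨
    6 * d = (x + 20) * (x + 19) * (x + 15) ∨ 3 * d = (x + 20) * (x + 18) * (x + 16) ∨
    6 * d = (x + 19) * (x + 18) * (x + 17) ∨ (x + 19) ^ 3 < 2 * d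

theorem no_mul_u {x d : ℕ} (hd : 2 * d = (x + 19) * (x + 20) * (x + 17)) (h : Low x d) : False := by
  have h1 := Nat.zero_le (x ^ 3)
  have h2 := Nat.zero_le (x ^ 2)
  rcases h with h | h | h | h | h | h | h | h <;> nlinarith

theorem no_mul_u' {x d : ℕ} (hd : 4 * d = (x + 19) * (x + 20) * (x + 17)) (h : Low x d) : False := by
  have h1 := Nat.zero_le (x ^ 3)
  have h2 := Nat.zero_le (x ^ 2)
  rcases h with h | h | h | h | h | h | h | h <;> nlinarith

theorem no_mul_v {x d k : ℕ} (hk : k ∣ x + 19) (hk2 : 2 ≤ k) (hd : 2 * d = k * (x + 19) * (x + 18))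
    (h : Low x d) : False := by
  have h1 := Nat.zero_le (x ^ 3)
  have h2 := Nat.zero_le (x ^ 2)
  have hkm : k ≤ x + 19 := Nat.le_of_dvd (by omega) hk
  have hge : 2 * ((x + 19) * (x + 18)) ≤ k * (x + 19) * (x + 18) := by
    calc 2 * ((x + 19) * (x + 18)) ≤ k * ((x + 19) * (x + 18)) := Nat.mul_le_mul_right _ hk2
      _ = _ := by ring
  have hle : k * (x + 19) * (x + 18) ≤ (x + 19) * (x + 19) * (x + 18) :=
    Nat.mul_le_mul_right _ (Nat.mul_le_mul_right _ hkm)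
  rcases h with h | h | h | h | h | h | h | h
  · nlinarith
  · nlinarith
  · nlinarith
  · nlinarith
  · have h3 : (3 * k * (x + 18)) * (x + 19) = ((x + 20) * (x + 15)) * (x + 19) := by linarith
    have h4 := Nat.eq_of_mul_eq_mul_right (by omega) h3
    have h5 : (x + 18) * (3 * k + 1) + 6 = (x + 18) * (x + 18) := by linarith
    have h6 : x + 18 ∣ 6 := (Nat.dvd_add_right (Dvd.intro _ rfl)).1 (h5 ▸ Dvd.intro _ rfl)
    have := Nat.le_of_dvd (by norm_num) h6
    omega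
  · have h3 : (3 * k * (x + 19)) * (x + 18) = (2 * ((x + 20) * (x + 16))) * (x + 18) := by linarith
    have h4 := Nat.eq_of_mul_eq_mul_right (by omega) h3
    have h5 : (x + 19) * (3 * k + 4) + 6 = (x + 19) * (2 * (x + 19)) := by linarith
    have h6 : x + 19 ∣ 6 := (Nat.dvd_add_right (Dvd.intro _ rfl)).1 (h5 ▸ Dvd.intro _ rfl)
    have := Nat.le_of_dvd (by norm_num) h6
    omega
  · have h3 : (3 * k) * ((x + 19) * (x + 18)) = (x + 17) * ((x + 19) * (x + 18)) := by linarith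
    have h4 := Nat.eq_of_mul_eq_mul_right (by positivity) h3
    have h5 : k ∣ 2 := by
      have h6 : x + 19 = k * 3 + 2 := by omega
      exact (Nat.dvd_add_right (Dvd.intro _ rfl)).1 (h6 ▸ hk)
    have := Nat.le_of_dvd (by norm_num) h5
    omega
  · nlinarith

/-- `2 w A = 2 u`, `A ≡ 1` modulo `m`, `m` odd -/
theorem no_one {x w A : ℕ} (hA : 1 < A) (hm : x + 19 ∣ A - 1) (h : 2 * (w * A) = (x + 20) * (x + 17))
    (hodd : Odd (x + 19)) : False := by
  obtain ⟨j, hj⟩ := hm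
  have hj0 : 1 ≤ j := by
    rcases Nat.eq_zero_or_pos j with h0 | h0
    · rw [h0] at hj; omega
    · exact h0
  have hA' : A = 1 + (x + 19) * j := by omega
  subst hA'
  have h1 : (x + 19) * (2 * w * j + 1) + (2 * w + 2) = (x + 19) * (x + 19) := by nlinarith
  have h2 : x + 19 ∣ 2 * w + 2 := (Nat.dvd_add_right (Dvd.intro _ rfl)).1 (h1 ▸ Dvd.intro _ rfl)
  have h3 : x + 19 ≤ (x + 19) * j := Nat.le_mul_of_pos_right _ hj0
  have h4 : 2 * w * (x + 20) ≤ (x + 17) * (x + 20) := by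
    calc 2 * w * (x + 20) ≤ 2 * w * (1 + (x + 19) * j) := Nat.mul_le_mul_left _ (by omega)
      _ = 2 * (w * (1 + (x + 19) * j)) := by ring
      _ = _ := by rw [h]; ring
  have h5 : 2 * w ≤ x + 17 := Nat.le_of_mul_le_mul_right h4 (by omega)
  have h6 := Nat.le_of_dvd (by omega) h2
  have h7 : 2 * w + 2 = x + 19 := by omega
  rw [← h7] at hodd
  exact (Nat.not_even_iff_odd.2 hodd) ⟨w + 1, by ring⟩

/-- `2 w A = 2 u`, `A ≡ -1` modulo `m` -/
theorem eq_neg_one {x w A : ℕ} (hm : x + 19 ∣ A + 1) (h : 2 * (w * A) = (x + 20) * (x + 17)) : w = 1 := by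
  obtain ⟨j, hj⟩ := hm
  have hj0 : 1 ≤ j := by
    rcases Nat.eq_zero_or_pos j with h0 | h0
    · rw [h0] at hj; omega
    · exact h0
  have hw : 1 ≤ w := by
    rcases Nat.eq_zero_or_pos w with h0 | h0
    · rw [h0] at h; nlinarith
    · exact h0
  have h3 : x + 19 ≤ (x + 19) * j := Nat.le_mul_of_pos_right _ hj0
  have h4 : 2 * w * (x + 18) ≤ (x + 20) * (x + 17) := by
    calc 2 * w * (x + 18) ≤ 2 * w * A := Nat.mul_le_mul_left _ (by omega)
      _ = 2 * (w * A) := by ring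
      _ = _ := h
  have h5 : 2 * w < x + 19 := by
    by_contra hcon
    push Not at hcon
    have : (x + 19) * (x + 18) ≤ 2 * w * (x + 18) := Nat.mul_le_mul_right _ hcon
    nlinarith
  obtain ⟨w', rfl⟩ : ∃ w', w = w' + 1 := ⟨w - 1, by omega⟩
  have h6 : 2 * ((w' + 1) * (A + 1)) = (x + 20) * (x + 17) + 2 * (w' + 1) := by
    rw [← h]; ring
  rw [hj] at h6
  have h7 : (x + 19) * (2 * (w' + 1) * j + 1) = (x + 19) * (x + 19) + 2 * w' := by nlinarith
  have h8 : x + 19 ∣ 2 * w' := (Nat.dvd_add_right (Dvd.intro _ rfl)).1 (h7 ▸ Dvd.intro _ rfl)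
  rcases Nat.eq_zero_or_pos w' with h0 | h0
  · omega
  · have := Nat.le_of_dvd (by omega) h8
    omega

end Cfsg.Agent.H961.AN
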