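import Cfsg.Agent.H691.AN.Defs
import Cfsg.Agent.H424.DegTools
import Cfsg.Agent.H961.AN.B9Num

/-!
# S4766, piece B9 (helper961)

`Frob.dvd` : `|G : M|` divides `q ^ a - 1`; `b9_large_of` : no solvable group has the degrees of `A_n`, `n ≥ 20`
(from the pieces A3 - A6 and B4 - B8 as hypotheses).
-/

set_option autoImplicit false

namespace Cfsg.Agent.H961.AN

open Cfsg Cfsg.Agent.H691.AN Cfsg.Agent.H424.DegTools

universe u

section

variable {G : Type u} [Group G] [Finite G] {N M : Subgroup G} {q a : ℕ}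

/-- `G` acts on the nontrivial elements of `M / N` with all orbits of size `|G : M|` -/
theorem frob_dvd (hF : Frob G N M q a) : M.index ∣ q ^ a - 1 := by
  classical
  have := hF.normN
  have := hF.normM
  set π := QuotientGroup.mk' N with hπ
  set Mq : Subgroup (G ⧸ N) := M.map π with hMq
  have hMqn : Mq.Normal := Subgroup.Normal.map ‹M.Normal› π (QuotientGroup.mk'_surjective N)
  let X := {x : G ⧸ N // x ∈ Mq ∧ x ≠ 1}
  let act : MulAction G X :=
    { smul := fun g x => ⟨π g * x.1 * (π g)⁻¹, hMqn.conj_mem _ x.2.1 _, by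
        intro h
        apply x.2.2
        have := mul_inv_eq_one.1 h
        simpa using this⟩
      one_smul := fun x => by
        apply Subtype.ext
        show π 1 * x.1 * (π 1)⁻¹ = x.1
        simp
      mul_smul := fun g h x => by
        apply Subtype.ext
        show π (g * h) * x.1 * (π (g * h))⁻¹ = π g * (π h * x.1 * (π h)⁻¹) * (π g)⁻¹
        simp [mul_assoc] }
  have hsm : ∀ (g : G) (x : X), (g • x).1 = π g * x.1 * (π g)⁻¹ := fun _ _ => rfl
  have hst : ∀ x : X, MulAction.stabilizer G x = M := by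
    intro x
    obtain ⟨⟨y, hy, hyx⟩, hx1⟩ := x.2
    ext g
    rw [MulAction.mem_stabilizer_iff, Subtype.ext_iff, hsm, ← hyx]
    have e : π g * π y * (π g)⁻¹ = π y ↔ g * y * g⁻¹ * y⁻¹ ∈ N := by
      rw [← QuotientGroup.eq_one_iff (N := N)]
      have e1 : ((g * y * g⁻¹ * y⁻¹ : G) : G ⧸ N) = π g * π y * (π g)⁻¹ * (π y)⁻¹ := by
        simp [hπ]
      rw [e1, mul_inv_eq_one]
    rw [e]
    constructor
    · intro h
      by_contra hg
      have := hF.free g hg y hy h
      apply hx1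
      rw [← hyx]
      exact (QuotientGroup.eq_one_iff y).2 this
    · intro hg
      exact hF.abel (Subgroup.commutator_mem_commutator hg hy)
  have hcard : Nat.card Mq = q ^ a := by
    rw [← hF.card, hMq, ← Subgroup.relIndex_ker, hπ, QuotientGroup.ker_mk']
  have hX : Nat.card X = q ^ a - 1 := by
    have h1 : Nat.card X = Set.ncard ((Mq : Set (G ⧸ N)) \ {1}) := by
      rw [← Nat.card_coe_set_eq]
      exact Nat.card_congr (Equiv.refl _)
    rw [h1, Set.ncard_sdiff_singleton_of_mem Mq.one_mem, ← hcard]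
    rfl
  rw [← hX]
  have := Fintype.ofFinite G
  have := Fintype.ofFinite X
  have : Fintype (MulAction.orbitRel.Quotient G X) := Fintype.ofFinite _
  have key := MulAction.card_eq_sum_card_group_div_card_stabilizer G X
  rw [Nat.card_eq_fintype_card, key]
  refine Finset.dvd_sum fun ω _ => ?_
  have h1 : Fintype.card (MulAction.stabilizer G ω.out) = Nat.card M := by
    rw [← Nat.card_eq_fintype_card, hst]
  rw [h1, ← Nat.card_eq_fintype_card, ← M.index_mul_card, Nat.mul_div_cancel _ Nat.card_pos]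

theorem frob_le (hF : Frob G N M q a) : M.index + 1 ≤ q ^ a := by
  have h1 := frob_dvd hF
  have h2 : 1 < q ^ a := Nat.one_lt_pow hF.pos.ne' hF.prime.one_lt
  have := Nat.le_of_dvd (by omega) h1
  omega

end

/-- **B9** (pieces A3 - A6, B4 - B8 as hypotheses) -/
theorem b9_large_of
    (a3 : ∀ {n : ℕ}, 20 ≤ n → ∀ {d : ℕ}, d ∈ D n →
      d = 1 ∨ d = n - 1 ∨ 2 * d = n * (n - 3) ∨ 2 * d = (n - 1) * (n - 2) ∨ 6 * d = n * (n - 1) * (n - 5) ∨
      3 * d = n * (n - 2) * (n - 4) ∨ 6 * d = (n - 1) * (n - 2) * (n - 3) ∨ (n - 1) ^ 3 < 2 * d)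
    (a4 : ∀ {n : ℕ}, 7 ≤ n → n - 1 ∈ D n ∧ n * (n - 3) / 2 ∈ D n ∧ (n - 1) * (n - 2) / 2 ∈ D n)
    (a5 : ∀ {n : ℕ}, 10 ≤ n → ∀ {p k : ℕ}, p.Prime → 0 < k → p ^ k ∈ D n → p ^ k = n - 1)
    (a6 : ∀ {n : ℕ}, 7 ≤ n → ∀ {d : ℕ}, d ∈ D n → d = 1 ∨ n - 1 ≤ d)
    (b4 : ∀ {n : ℕ}, 20 ≤ n → ∀ {G : Type u} [Group G] [Finite G] [Group.IsSolvable G], charDegrees G = D n →
      ∃ A : Subgroup G, A.Normal ∧ commutator G ≤ A ∧ A.index = n - 1 ∧
      ∃ χ : G → ℂ, IsIrrCharacter G χ ∧ χ 1 = (n - 1 : ℕ) ∧ ∀ g ∈ ⁅A, A⁆, χ g = χ 1)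
    (b5 : ∀ {n : ℕ}, 20 ≤ n → ∀ {G : Type u} [Group G] [Finite G], charDegrees G = D n → ∀ (K : Subgroup G)
      [K.Normal] {q : ℕ}, q.Prime → IsPGroup q (G ⧸ K) → commutator G ≤ K)
    (b6 : ∀ {G : Type u} [Group G] [Finite G] {m : ℕ}, 1 < m → (∀ d ∈ charDegrees G, d ∣ m → d = 1 ∨ d = m) →
      (∀ (q : ℕ) (K : Subgroup G) [K.Normal], q.Prime → IsPGroup q (G ⧸ K) → commutator G ≤ K) →
      ∀ (A : Subgroup G), A.Normal → commutator G ≤ A → A.index = m →
      (∃ χ : G → ℂ, IsIrrCharacter G χ ∧ χ 1 = (m : ℕ) ∧ ∀ g ∈ ⁅A, A⁆, χ g = χ 1) →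
      ∃ (N : Subgroup G) (q a : ℕ), Frob G N A q a)
    (b7 : ∀ {G : Type u} [Group G] [Finite G] {N M : Subgroup G} {q a : ℕ}, Frob G N M q a →
      ∀ {θ : M → ℂ}, IsIrrCharacter M θ → ∀ {t : ℕ}, θ 1 = t → ¬ q ∣ t → M.index * t ∈ charDegrees G)
    (b8 : ∀ {G : Type u} [Group G] [Finite G] {N M : Subgroup G} {q a : ℕ}, Frob G N M q a → ∀ {d : ℕ},
      d ∈ charDegrees G → d.Coprime M.index →
      M.index * d ∈ charDegrees G ∨ q ^ a ∣ d ∨ ∃ e : ℕ, e ^ 2 = q ^ a ∧ e ∣ d ∧ (M.index ∣ e - 1 ∨ M.index ∣ e + 1))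
    {n : ℕ} (hn : 20 ≤ n) {G : Type u} [Group G] [Finite G] [Group.IsSolvable G]
    (h : charDegrees G = D n) : False := by
  obtain ⟨x, rfl⟩ : ∃ x, n = x + 20 := ⟨n - 20, by omega⟩
  have low : ∀ {d : ℕ}, d ∈ charDegrees G → Low x d := by
    intro d hd
    have := a3 hn (h ▸ hd)
    simpa only [Low, show x + 20 - 1 = x + 19 by omega, show x + 20 - 2 = x + 18 by omega,
      show x + 20 - 3 = x + 17 by omega, show x + 20 - 4 = x + 16 by omega, show x + 20 - 5 = x + 15 by omega]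
      using this
  obtain ⟨A, hAn, hcA, hAi, hχ⟩ := b4 hn h
  rw [show x + 20 - 1 = x + 19 by omega] at hAi hχ
  obtain ⟨N, q, a, hF⟩ := b6 (m := x + 19) (by omega) (fun d hd hdm => by
      rcases a6 (by omega : 7 ≤ x + 20) (h ▸ hd) with h1 | h1
      · exact Or.inl h1
      · have := Nat.le_of_dvd (by omega) hdm
        exact Or.inr (by omega)) (fun q K _ hq hK => b5 hn h K hq hK) A hAn hcA hAi hχ
  obtain ⟨-, hu, hv⟩ := a4 (by omega : 7 ≤ x + 20)
  rw [← h] at hu hv
  set u := (x + 20) * (x + 20 - 3) / 2 with hu0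
  set v := (x + 20 - 1) * (x + 20 - 2) / 2 with hv0
  have hu2 : 2 * u = (x + 20) * (x + 17) := by
    rw [hu0, show x + 20 - 3 = x + 17 by omega]
    refine Nat.mul_div_cancel' ?_
    rcases Nat.even_or_odd x with ⟨c, hc⟩ | ⟨c, hc⟩
    · exact Dvd.dvd.mul_right ⟨c + 10, by omega⟩ _
    · exact Dvd.dvd.mul_left ⟨c + 9, by omega⟩ _
  have hv2 : 2 * v = (x + 19) * (x + 18) := by
    rw [hv0, show x + 20 - 1 = x + 19 by omega, show x + 20 - 2 = x + 18 by omega]
    refine Nat.mul_div_cancel' ?_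
    rcases Nat.even_or_odd x with ⟨c, hc⟩ | ⟨c, hc⟩
    · exact Dvd.dvd.mul_left ⟨c + 9, by omega⟩ _
    · exact Dvd.dvd.mul_right ⟨c + 10, by omega⟩ _
  have huv : v = u + 1 := by nlinarith
  clear_value u v
  have hmu : 2 * ((x + 19) * u) = (x + 19) * (x + 20) * (x + 17) := by
    calc 2 * ((x + 19) * u) = (x + 19) * (2 * u) := by ring
      _ = _ := by rw [hu2]; ring
  have hqa := frob_dvd hF
  have hle := frob_le hF
  rw [hAi] at hqa hle
  rcases Nat.even_or_odd (x + 19) with hev | hodd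
  · -- `n` odd
    have key : ∀ {d : ℕ}, d ∈ charDegrees G → (∀ t, t ∣ x + 19 → t ∣ d → ∀ c, c * t = d →
        (x + 19) * c ∉ charDegrees G) → q ∣ d := by
      intro d hd hno
      obtain ⟨c, hc, hcd, hci⟩ := clifford_down A hd
      rw [hAi] at hci
      obtain ⟨θ, hθ, hθ1⟩ := mem_charDegrees.1 hc
      by_cases hqc : q ∣ c
      · exact hqc.trans hcd
      · exfalso
        have h1 := b7 hF hθ hθ1 hqc
        rw [hAi] at h1
        exact hno (d / c) hci (Nat.div_dvd_of_dvd hcd) c (Nat.mul_div_cancel' hcd) h1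
    have hqu : q ∣ u := by
      refine key hu fun t ht1 ht2 c hc hmem => ?_
      have ht3 : t ∣ 2 := by
        have h1 : t ∣ 2 * u := Dvd.dvd.mul_left ht2 2
        rw [hu2] at h1
        have h2 : (x + 19) * (x + 18) = (x + 20) * (x + 17) + 2 := by ring
        exact (Nat.dvd_add_right h1).1 (h2 ▸ Dvd.dvd.mul_right ht1 _)
      rcases (Nat.dvd_prime Nat.prime_two).1 ht3 with rfl | rfl
      · refine no_mul_u ?_ (low hmem)
        rw [mul_one] at hc
        rw [hc]
        exact hmu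
      · refine no_mul_u' ?_ (low hmem)
        nlinarith
    have hqv : q ∣ v := by
      refine key hv fun t ht1 ht2 c hc hmem => ?_
      obtain ⟨k, hk⟩ := ht1
      refine no_mul_v (k := k) ⟨t, by rw [hk, mul_comm]⟩ ?_ ?_ (low hmem)
      · by_contra hlt
        have hk1 : k = 1 := by
          rcases Nat.eq_zero_or_pos k with h0 | h0
          · rw [h0] at hk; omega
          · omega
        rw [hk1, mul_one] at hk
        rw [← hk] at hc
        -- `2 c = x + 18`
        have h1 : 2 * c * (x + 19) = (x + 18) * (x + 19) := by linarith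
        have h2 := Nat.eq_of_mul_eq_mul_right (by omega) h1
        obtain ⟨c', hc'⟩ := hev
        omega
      · have ht0 : 0 < t := by
          rcases Nat.eq_zero_or_pos t with h0 | h0
          · rw [h0] at hk; omega
          · exact h0
        have h1 : 2 * (c * t) = (k * (x + 18)) * t := by
          rw [hc, hv2, hk]; ring
        have h2 : 2 * c = k * (x + 18) := by
          apply Nat.eq_of_mul_eq_mul_right ht0
          linarith
        calc 2 * ((x + 19) * c) = (x + 19) * (2 * c) := by ring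
          _ = _ := by rw [h2]; ring
    rw [huv] at hqv
    have := (Nat.dvd_add_right hqu).1 hqv
    exact hF.prime.one_lt.ne' (Nat.dvd_one.1 this)
  · -- `n` even
    have hcop : u.Coprime A.index := by
      rw [hAi]
      have h1 : (2 * u).Coprime (x + 19) := by
        rw [Nat.coprime_iff_gcd_eq_one]
        have h2 : (2 * u).gcd (x + 19) ∣ 2 := by
          have h3 : (x + 19) * (x + 18) = 2 * u + 2 := by rw [hu2]; ring
          exact (Nat.dvd_add_right (Nat.gcd_dvd_left _ _)).1 (h3 ▸ Dvd.dvd.mul_right (Nat.gcd_dvd_right _ _) _)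
        rcases (Nat.dvd_prime Nat.prime_two).1 h2 with h3 | h3
        · exact h3
        · exfalso
          have h4 : 2 ∣ x + 19 := h3 ▸ Nat.gcd_dvd_right _ _
          obtain ⟨c, hc⟩ := hodd
          omega
      exact Nat.Coprime.coprime_mul_left h1
    rcases b8 hF hu hcop with h1 | ⟨w, hw⟩ | ⟨e, he, ⟨w, hw⟩, h1 | h1⟩
    · rw [hAi] at h1
      exact no_mul_u hmu (low h1)
    · refine no_one (A := q ^ a) (w := w) (by omega) hqa ?_ hodd
      rw [mul_comm w, ← hw, hu2]
    · rw [hAi] at h1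
      have he1 : 1 < e := by
        by_contra hlt
        have : e = 0 ∨ e = 1 := by omega
        rcases this with rfl | rfl <;> simp at he <;> omega
      refine no_one (A := e) (w := w) he1 h1 ?_ hodd
      rw [mul_comm w, ← hw, hu2]
    · rw [hAi] at h1
      have hw1 : w = 1 := eq_neg_one (A := e) (w := w) h1 (by rw [mul_comm w, ← hw, hu2])
      rw [hw1, mul_one] at hw
      have he2 : e ∣ q ^ a := he ▸ dvd_pow_self e two_ne_zero
      obtain ⟨k, hk, hek⟩ := (Nat.dvd_prime_pow hF.prime).1 he2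
      have hk0 : 0 < k := by
        rcases Nat.eq_zero_or_pos k with h0 | h0
        · rw [h0, pow_zero] at hek
          rw [hek] at hw
          nlinarith
        · exact h0
      have h3 := a5 (n := x + 20) (by omega) hF.prime hk0 (by rw [← hek, ← hw, ← h]; exact hu)
      rw [← hek, ← hw, show x + 20 - 1 = x + 19 by omega] at h3
      nlinarith

end Cfsg.Agent.H961.AN
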